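import Cfsg.Agent.H807.El.Mathieu
import Cfsg.Agent.OddHalf.Table.OutSuz

/-!
# S3403, part B: the Suzuki group
-/

set_option autoImplicit false
set_option maxRecDepth 100000

namespace Cfsg.Agent.H807.El

open Cfsg Cfsg.Agent.H43.Eleven
open Cfsg.Agent.OddHalf.Table.SuzRep

universe u

theorem card_Suz : Nat.card Spor.Suz = 448345497600 := Cfsg.Agent.SporadicRecognition.SuzOrder.card_Suz

theorem Suz_word : Wd [0, 5, 0, 5] = x * (w * x * w) := by
  rw [Wd_cons, Wd_cons, Wd_cons, Wd_one, mul_assoc]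
  rfl

theorem row_Suz' : Row Spor.Suz := by
  intro _ P hP _
  exfalso
  have hw : w⁻¹ = w := by
    rw [inv_eq_iff_mul_eq_one]
    exact w2
  have hc : w * x * w = w * x * w⁻¹ := by rw [hw]
  refine Cfg.false_of_pair_pow hP (by rw [card_Suz]; norm_num) (a := x) (b := w * x * w) (k := 12) (d := 6)
    (by norm_num) x11 x_ne ?_ ?_ ?_ ?_
  · rw [hc, conj_pow, x11, mul_one, mul_inv_cancel]
  · rw [hc, Ne, conj_eq_one_iff]
    exact x_ne
  · have h := eqw (u := rep 12 [0, 5, 0, 5]) (v := []) (by decide +kernel)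
    rwa [Wd_rep, Suz_word] at h
  · have h := ne_of_ev (u := rep 6 [0, 5, 0, 5]) (v := []) (p := 0) (by decide +kernel)
    rwa [Wd_rep, Suz_word] at h

theorem row_Suz {X : Type u} [Group X] (h : Spor.IsoSuz X) : Row X := by
  obtain ⟨e⟩ := h
  exact row_congr e row_Suz'

end Cfsg.Agent.H807.El
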